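import Mathlib

set_option autoImplicit false

/-! # Limits of subspaces under one parameter groups of transvection type -/

namespace Cfsg.Agent.Lib.Off

open Polynomial Module

variable {F E : Type*} [Field F] [Ring E] [Algebra F E]

/-- the one parameter group -/
noncomputable def pp (β : E) : E[X] := 1 + C β * X

theorem pp_mul {β : E} (h : β * β = 0) : pp (-β) * pp β = 1 := by
  have : (C β * X * (C β * X) : E[X]) = 0 := by
    rw [mul_assoc, ← mul_assoc X, X_mul_C, ← mul_assoc, ← mul_assoc, ← C_mul, h]; simp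
  simp only [pp, map_neg]
  rw [← sub_eq_zero, ← neg_eq_zero, ← this]
  noncomm_ring

theorem pp_mul' {β : E} (h : β * β = 0) : pp β * pp (-β) = 1 := by
  have := pp_mul (β := -β) (by rwa [neg_mul_neg])
  rwa [neg_neg] at this

/-- polynomials with coefficients in a subspace -/
def poly (U : Submodule F E) : Submodule F E[X] where
  carrier := {f | ∀ i, f.coeff i ∈ U}
  add_mem' ha hb i := by rw [coeff_add]; exact U.add_mem (ha i) (hb i)
  zero_mem' i := by simp
  smul_mem' c f hf i := by rw [coeff_smul]; exact U.smul_mem c (hf i)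

/-- the moving subspace -/
noncomputable def hat (β : E) (U : Submodule F E) : Submodule F E[X] :=
  (poly U).map (LinearMap.mulLeftRight F (pp β, pp (-β)))

theorem mem_hat {β : E} {U : Submodule F E} {g : E[X]} :
    g ∈ hat β U ↔ ∃ f : E[X], (∀ i, f.coeff i ∈ U) ∧ pp β * f * pp (-β) = g := Iff.rfl

theorem hat_X {β : E} {U : Submodule F E} {g : E[X]} (h : g ∈ hat β U) (k : ℕ) :
    g * X ^ k ∈ hat β U := by
  obtain ⟨f, hf, rfl⟩ := mem_hat.mp h
  refine mem_hat.mpr ⟨f * X ^ k, fun i => ?_, ?_⟩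
  · rw [coeff_mul_X_pow']
    split_ifs
    exacts [hf _, U.zero_mem]
  · rw [mul_assoc (pp β * f), ← X_pow_mul (p := pp (-β))]; simp only [mul_assoc]

/-- the limit subspace -/
noncomputable def lim (β : E) (U : Submodule F E) : Submodule F E where
  carrier := {c | ∃ d, ∃ g ∈ hat β U, g.natDegree ≤ d ∧ g.coeff d = c}
  add_mem' := by
    rintro _ _ ⟨d, g, hg, h1, rfl⟩ ⟨d', g', hg', h2, rfl⟩
    refine ⟨d + d', g * X ^ d' + g' * X ^ d, add_mem (hat_X hg _) (hat_X hg' _),
      natDegree_add_le_of_degree_le (natDegree_mul_le.trans (add_le_add h1 (natDegree_X_pow_le _)))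
        (natDegree_mul_le.trans ((add_le_add h2 (natDegree_X_pow_le _)).trans (add_comm _ _).le)), ?_⟩
    rw [coeff_add, coeff_mul_X_pow, add_comm d, coeff_mul_X_pow]
  zero_mem' := ⟨0, 0, zero_mem _, le_rfl, rfl⟩
  smul_mem' := by
    rintro c _ ⟨d, g, hg, h1, rfl⟩
    exact ⟨d, c • g, Submodule.smul_mem _ c hg, (natDegree_smul_le _ _).trans h1, coeff_smul _ _ _⟩

theorem lim_mono (β : E) {U U' : Submodule F E} (h : U ≤ U') : lim β U ≤ lim β U' := by
  rintro _ ⟨d, g, ⟨f, hf, rfl⟩, h1, rfl⟩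
  exact ⟨d, _, ⟨f, fun i => h (hf i), rfl⟩, h1, rfl⟩

theorem lim_mul {β : E} (hβ : β * β = 0) {U U' : Submodule F E} (h : ∀ a ∈ U, ∀ b ∈ U', a * b = 0) :
    ∀ a ∈ lim β U, ∀ b ∈ lim β U', a * b = 0 := by
  rintro _ ⟨d, g, hg, h1, rfl⟩ _ ⟨d', g', hg', h2, rfl⟩
  obtain ⟨f, hf, rfl⟩ := mem_hat.mp hg
  obtain ⟨f', hf', rfl⟩ := mem_hat.mp hg'
  have : f * f' = 0 := by
    ext i
    rw [coeff_mul, coeff_zero]
    exact Finset.sum_eq_zero fun x _ => h _ (hf _) _ (hf' _)
  rw [← coeff_mul_add_eq_of_natDegree_le h1 h2, show pp β * f * pp (-β) * (pp β * f' * pp (-β)) =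
    pp β * (f * (pp (-β) * pp β) * f') * pp (-β) by simp only [mul_assoc], pp_mul hβ, mul_one, this]
  simp

/-- invariance under the one parameter group -/
def Stb (β : E) (U : Submodule F E) : Prop := ∀ u ∈ U, β * u - u * β ∈ U ∧ β * u * β ∈ U

theorem pp_expand (β : E) (f : E[X]) :
    pp β * f * pp (-β) = f + (C β * f - f * C β) * X - C β * f * C β * X * X := by
  have h1 : X * f = f * X := X_mul
  have h2 : X * C β = C β * X := X_mul
  simp only [pp, map_neg]
  calc _ = f + C β * (X * f) - f * C β * X - C β * (X * f) * C β * X := by noncomm_ring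
    _ = f + C β * (f * X) - f * C β * X - C β * f * (X * C β) * X := by rw [h1]; noncomm_ring
    _ = _ := by rw [h2]; noncomm_ring

theorem mem_poly {β : E} {L : Submodule F E} {U : Submodule F E} (hU : U ≤ L)
    (h : ∀ u ∈ U, β * u - u * β ∈ L ∧ β * u * β ∈ L) {f : E[X]} (hf : ∀ i, f.coeff i ∈ U) :
    pp β * f * pp (-β) ∈ poly L := by
  have hX : ∀ g ∈ poly L, g * X ∈ poly L := fun g hg i => by
    cases i with
    | zero => simp
    | succ i => rw [coeff_mul_X]; exact hg i
  rw [pp_expand]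
  refine sub_mem (add_mem (fun i => hU (hf i)) (hX _ fun i => ?_)) (hX _ (hX _ fun i => ?_))
  · rw [coeff_sub, coeff_C_mul, coeff_mul_C]; exact (h _ (hf i)).1
  · rw [coeff_mul_C, coeff_C_mul]; exact (h _ (hf i)).2

theorem lim_le {β : E} {L : Submodule F E} {U : Submodule F E} (hU : U ≤ L)
    (h : ∀ u ∈ U, β * u - u * β ∈ L ∧ β * u * β ∈ L) : lim β U ≤ L := by
  rintro _ ⟨d, g, ⟨f, hf, rfl⟩, -, rfl⟩
  exact mem_poly hU h hf d

theorem Stb.C_mem {β : E} (hβ : β * β = 0) {U U' : Submodule F E} (h : Stb β U) (hU : U ≤ U') {w : E}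
    (hw : w ∈ U) : C w ∈ hat β U' := by
  refine mem_hat.mpr ⟨pp (-β) * C w * pp (- -β), fun i => hU (mem_poly (β := -β) le_rfl
    (fun u hu => ⟨?_, ?_⟩) (fun i => ?_) i), ?_⟩
  · convert U.neg_mem (h u hu).1 using 1; noncomm_ring
  · convert (h u hu).2 using 1; noncomm_ring
  · rw [coeff_C]; split_ifs; exacts [hw, U.zero_mem]
  · rw [neg_neg, show pp β * (pp (-β) * C w * pp β) * pp (-β) =
      pp β * pp (-β) * C w * (pp β * pp (-β)) by simp only [mul_assoc], pp_mul' hβ, one_mul, mul_one]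

theorem Stb.le_lim {β : E} (hβ : β * β = 0) {U U' : Submodule F E} (h : Stb β U) (hU : U ≤ U') :
    U ≤ lim β U' := fun w hw => ⟨0, _, h.C_mem hβ hU hw, (natDegree_C w).le, coeff_C_zero⟩

theorem mem_lim_two {β : E} {U : Submodule F E} {u : E} (hu : u ∈ U) : β * u * β ∈ lim β U := by
  have h : pp β * C u * pp (-β) ∈ hat β U :=
    mem_hat.mpr ⟨_, fun i => by rw [coeff_C]; split_ifs; exacts [hu, U.zero_mem], rfl⟩
  refine neg_mem_iff.mp ⟨2, _, h, ?_, ?_⟩ <;> rw [pp_expand] <;> simp only [← C_mul, ← C_sub]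
  · compute_degree
  · simp [coeff_mul_X, coeff_C]

theorem mem_lim_one {β : E} {U : Submodule F E} {u : E} (hu : u ∈ U) (h2 : C (β * u * β) ∈ hat β U) :
    β * u - u * β ∈ lim β U := by
  have h : pp β * C u * pp (-β) ∈ hat β U :=
    mem_hat.mpr ⟨_, fun i => by rw [coeff_C]; split_ifs; exacts [hu, U.zero_mem], rfl⟩
  refine ⟨1, _, add_mem h (hat_X h2 2), ?_, ?_⟩ <;> rw [pp_expand] <;>
    simp only [← C_mul, ← C_sub, sq, ← mul_assoc, sub_add_cancel]
  · compute_degree
  · simp [coeff_mul_X, coeff_C]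

theorem finrank_le_of_filt {S : Type*} [AddCommGroup S] [Module F S] [Module.Finite F S]
    [Module.Finite F E] (c : ℕ → S →ₗ[F] E) (hc : ∀ s, (∀ i, c i s = 0) → s = 0) (L : Submodule F E)
    (hL : ∀ s d, (∀ i > d, c i s = 0) → c d s ∈ L) (N : ℕ) :
    finrank F (⨅ i ≥ N, LinearMap.ker (c i) : Submodule F S) ≤ N * finrank F L := by
  induction N with
  | zero =>
    rw [show (⨅ i ≥ 0, LinearMap.ker (c i) : Submodule F S) = ⊥ from eq_bot_iff.mpr fun s hs =>
      hc s fun i => by simpa using (Submodule.mem_iInf _).mp hs i]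
    simp
  | succ N ih =>
    let φ := (c N).domRestrict (⨅ i ≥ N + 1, LinearMap.ker (c i) : Submodule F S)
    have h1 : finrank F (LinearMap.range φ) ≤ finrank F L := Submodule.finrank_mono (by
      rintro _ ⟨s, rfl⟩
      exact hL _ _ fun i hi => by simpa [show N + 1 ≤ i from hi] using (Submodule.mem_iInf _).mp s.2 i)
    have h2 : finrank F (LinearMap.ker φ) ≤
        finrank F (⨅ i ≥ N, LinearMap.ker (c i) : Submodule F S) := by
      rw [← Submodule.finrank_map_subtype_eq]
      refine Submodule.finrank_mono ?_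
      rintro _ ⟨s, hs, rfl⟩
      simp only [Submodule.mem_iInf]
      intro i hi
      rcases hi.eq_or_lt with rfl | hi
      · exact hs
      · simpa [show N + 1 ≤ i from hi] using (Submodule.mem_iInf _).mp s.2 i
    have := φ.finrank_range_add_finrank_ker
    rw [add_mul]
    omega

theorem finrank_le_lim [Module.Finite F E] {β : E} (hβ : β * β = 0) (U : Submodule F E) :
    finrank F U ≤ finrank F (lim β U) := by
  have key : ∀ d, d * finrank F U ≤ (d + 2) * finrank F (lim β U) := fun d => by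
    let T : (Fin d → U) →ₗ[F] E[X] := ∑ j : Fin d,
      ((monomial (j : ℕ)).restrictScalars F ∘ₗ U.subtype ∘ₗ LinearMap.proj j)
    have hT : ∀ s i, (T s).coeff i = if h : i < d then (s ⟨i, h⟩ : E) else 0 := fun s i => by
      simp only [T, LinearMap.sum_apply, LinearMap.comp_apply, LinearMap.restrictScalars_apply,
        finsetSum_coeff, coeff_monomial]
      split_ifs with h
      · rw [Finset.sum_eq_single ⟨i, h⟩ (fun j _ hj => if_neg fun e => hj (Fin.ext e)) (by simp)]
        simp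
      · exact Finset.sum_eq_zero fun j _ => if_neg fun e : (j : ℕ) = i => h (e ▸ j.2)
    have hU : ∀ s i, (T s).coeff i ∈ U := fun s i => by
      rw [hT]; split_ifs; exacts [Subtype.prop _, U.zero_mem]
    have := finrank_le_of_filt (fun i => (lcoeff E i).restrictScalars F ∘ₗ
      LinearMap.mulLeftRight F (pp β, pp (-β)) ∘ₗ T) (fun s hs => by
        have h0 : pp β * T s * pp (-β) = 0 := Polynomial.ext hs
        have h1 : T s = 0 := by
          rw [← one_mul (T s), ← mul_one (T s), ← pp_mul hβ]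
          calc _ = pp (-β) * (pp β * T s * pp (-β)) * pp β := by simp only [mul_assoc]
            _ = 0 := by rw [h0]; simp
        funext j
        have := hT s j
        rw [h1, dif_pos j.2] at this
        exact Subtype.ext this.symm) (lim β U)
      (fun s e he => ⟨e, _, ⟨T s, hU s, rfl⟩, natDegree_le_iff_coeff_eq_zero.mpr he, rfl⟩) (d + 2)
    rw [show (⨅ i ≥ d + 2, _ : Submodule F (Fin d → U)) = ⊤ from eq_top_iff.mpr fun s _ => by
      simp only [Submodule.mem_iInf]
      intro i hi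
      obtain ⟨i, rfl⟩ := Nat.exists_eq_add_of_le' hi
      change (pp β * T s * pp (-β)).coeff _ = 0
      rw [pp_expand, ← add_assoc]
      simp [coeff_mul_X, coeff_C_mul, coeff_mul_C, hT, show ¬ i + d + 1 < d by omega,
        show ¬ i + d + 2 < d by omega]] at this
    simpa [finrank_pi_fintype] using this
  have := key (2 * finrank F (lim β U) + 1)
  by_contra h
  nlinarith

end Cfsg.Agent.Lib.Off
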