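import Cfsg.Agent.Lib.Off.Norm

set_option autoImplicit false

/-! # Two-subnormal quadratic offenders -/

namespace Cfsg.Agent.Lib.Off

open Module

variable {p : ℕ} [Fact p.Prime] {G W : Type*} [Group G] [Finite G] [AddCommGroup W]
  [Module (ZMod p) W] [Finite W] (ρ : G →* End (ZMod p) W)

/-- fixed points -/
def fx (A : Subgroup G) : Submodule (ZMod p) W where
  carrier := {w | ∀ a ∈ A, ρ a w = w}
  add_mem' h1 h2 a ha := by rw [map_add, h1 a ha, h2 a ha]
  zero_mem' a _ := map_zero _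
  smul_mem' c _ h a ha := by rw [map_smul, h a ha]

omit [Finite G] [Finite W] in
theorem ap_mul (a b : G) (w : W) : ρ (a * b) w = ρ a (ρ b w) := by rw [map_mul]; rfl

theorem exists_quad {E : Subgroup G} (hE : E ≠ ⊥) (hc : ∀ a ∈ E, ∀ b ∈ E, a * b = b * a)
    (he : ∀ a ∈ E, a ^ p = 1) (ho : Nat.card W ≤ Nat.card E * Nat.card (fx ρ E)) :
    ∃ A : Subgroup G, A ≠ ⊥ ∧ Nat.card W ≤ Nat.card A * Nat.card (fx ρ A) ∧
      ∀ a ∈ A, ∀ b ∈ A, (ρ a - 1) * (ρ b - 1) = 0 := by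
  induction E using WellFoundedLT.induction with
  | ind A ih =>
  by_contra h
  refine h ⟨A, hE, ho, fun a ha b hb => LinearMap.ext fun v => sub_eq_zero.mpr ?_⟩
  let B : Subgroup G :=
    { carrier := {a | a ∈ A ∧ ∀ c ∈ A, ρ a (ρ c v - v) = ρ c v - v}
      one_mem' := ⟨one_mem A, fun _ _ => by simp⟩
      mul_mem' := fun ha hb => ⟨mul_mem ha.1 hb.1, fun c hc => by
        rw [ap_mul, hb.2 c hc, ha.2 c hc]⟩
      inv_mem' := fun ha => ⟨inv_mem ha.1, fun c hc => by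
        conv_lhs => rw [← ha.2 c hc, ← ap_mul, inv_mul_cancel, map_one]
        rfl⟩ }
  have hBA : B ≤ A := fun _ ha => ha.1
  have sw : ∀ a ∈ A, ∀ c ∈ A, ∀ w, ρ a (ρ c w) = ρ c (ρ a w) := fun a ha c hc' w => by
    rw [← ap_mul, hc a ha c hc', ap_mul]
  let Ψ : (A ⧸ B.subgroupOf A) × fx ρ A → fx ρ B := fun x =>
    ⟨ρ x.1.out v - v + x.2, add_mem (fun b hb => hb.2 _ x.1.out.2) fun b hb => x.2.2 b hb.1⟩
  have hΨ : Function.Injective Ψ := by
    rintro ⟨q, u⟩ ⟨q', u'⟩ e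
    have e1 : ρ q.out v - v + u = ρ q'.out v - v + u' := congrArg Subtype.val e
    obtain rfl : q = q' := by
      rw [← q.out_eq, ← q'.out_eq]
      refine QuotientGroup.eq.mpr ⟨(q.out⁻¹ * q'.out).2, fun c hc => ?_⟩
      have e2 := congrArg (ρ c) e1
      simp only [map_add, map_sub, u.2 c hc, u'.2 c hc] at e2
      have e3 : ρ q'.out (ρ c v - v) = ρ q.out (ρ c v - v) := by
        rw [map_sub, map_sub, sw _ q.out.2 c hc, sw _ q'.out.2 c hc]
        linear_combination (norm := abel1) e1 - e2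
      change ρ ((q.out : G)⁻¹ * q'.out) _ = _
      rw [ap_mul, e3, ← ap_mul, inv_mul_cancel, map_one]
      rfl
    exact Prod.ext rfl (Subtype.ext (add_left_cancel e1))
  have h1 := Nat.card_le_card_of_injective Ψ hΨ
  have h2 := (B.subgroupOf A).card_eq_card_quotient_mul_card_subgroup
  rw [Nat.card_congr (Subgroup.subgroupOfEquivOfLe hBA).toEquiv] at h2
  rw [Nat.card_prod] at h1
  rcases hBA.eq_or_lt with e | hlt
  · exact (e.ge ha).2 b hb
  by_cases hB : B = ⊥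
  swap
  · exact absurd (ih B hlt hB (fun a ha b hb => hc a ha.1 b hb.1) (fun a ha => he a ha.1)
      (ho.trans (by rw [h2, mul_right_comm, mul_comm]; exact Nat.mul_le_mul_left _ h1))) h
  have h3 : Nat.card B = 1 := by rw [hB]; exact Subgroup.card_bot
  obtain ⟨⟨q, u⟩, e⟩ := ((Nat.bijective_iff_injective_and_card Ψ).mpr ⟨hΨ, le_antisymm
    (Nat.card_le_card_of_injective Ψ hΨ) ((Nat.card_le_card_of_injective _ Subtype.val_injective).trans
      (ho.trans (by rw [h2, h3, mul_one, Nat.card_prod])))⟩).2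
    ⟨v, fun b hb => by rw [hB, Subgroup.mem_bot] at hb; simp [hb]⟩
  have e1 : ρ q.out v - v + u = v := congrArg Subtype.val e
  have e2 := congrArg (ρ b) e1
  simp only [map_add, map_sub, u.2 b hb] at e2
  have e3 : ρ q.out (ρ b v - v) = (2 : ZMod p) • (ρ b v - v) := by
    rw [map_sub, sw _ q.out.2 b hb, two_smul]
    linear_combination (norm := abel1) e2 - e1
  have e4 : ∀ k : ℕ, ρ ((q.out : G) ^ k) (ρ b v - v) = (2 : ZMod p) ^ k • (ρ b v - v) := fun k => by
    induction k with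
    | zero => simp
    | succ k ih => rw [pow_succ, ap_mul, e3, map_smul, ih, smul_smul, pow_succ']
  have e5 := e4 p
  rw [he _ q.out.2, ZMod.pow_card, two_smul, map_one, End.one_apply, left_eq_add] at e5
  change ρ a (ρ b v - v) = ρ b v - v
  rw [e5, map_zero]

omit [Finite G] in
theorem off_iff (hf : Function.Injective ρ) {U : Submodule (ZMod p) (End (ZMod p) W)} (h : Sq U)
    (hi : In ρ U ⊤) (h0 : 0 < finrank (ZMod p) U) :
    finrank (ZMod p) W * finrank (ZMod p) W ≤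
      finrank (ZMod p) W * finrank (ZMod p) U + finrank (ZMod p) (ann U) ↔
    Nat.card W ≤ Nat.card (grp ρ h) * Nat.card (fx ρ (grp ρ h)) := by
  have e1 : Nat.card (grp ρ h) = Nat.card U := Nat.card_eq_of_bijective
    (fun g => ⟨ρ g - 1, g.2⟩) ⟨fun a b e => Subtype.ext (hf (sub_left_injective
      (congrArg Subtype.val e))), fun a => by
        obtain ⟨g, -, e⟩ := hi a a.2
        exact ⟨⟨g, show _ ∈ U by simp [e]⟩, Subtype.ext (by simp [e])⟩⟩
  have e2 : finrank (ZMod p) (ann U) = finrank (ZMod p) W * finrank (ZMod p) (fx ρ (grp ρ h)) := by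
    rw [← finrank_linearMap (ZMod p) (ZMod p), ← LinearMap.finrank_range_of_inj
      (f := LinearMap.llcomp (ZMod p) W _ W (fx ρ (grp ρ h)).subtype)
      fun a b e => LinearMap.ext fun w => Subtype.ext (LinearMap.congr_fun e w)]
    refine congrArg (fun X : Submodule (ZMod p) (End (ZMod p) W) => finrank (ZMod p) X) ?_
    ext η
    constructor
    · intro k
      exact ⟨η.codRestrict _ fun w a ha => sub_eq_zero.mp (LinearMap.congr_fun (k _ ha) w),
        rfl⟩
    · rintro ⟨f, rfl⟩ a ha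
      obtain ⟨g, -, e⟩ := hi a ha
      refine LinearMap.ext fun w => ?_
      have := (f w).2 g (show _ ∈ U by simpa [e])
      rw [e] at this
      simpa using this
  have h1 : 0 < finrank (ZMod p) W := by
    rw [finrank_pos_iff] at h0 ⊢
    by_contra k
    rw [not_nontrivial_iff_subsingleton] at k
    exact not_subsingleton U inferInstance
  rw [e1, e2, ← mul_add, Nat.mul_le_mul_left_iff h1, natCard_eq_pow_finrank (K := ZMod p) (V := W),
    natCard_eq_pow_finrank (K := ZMod p) (V := U),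
    natCard_eq_pow_finrank (K := ZMod p) (V := fx ρ (grp ρ h)), ← pow_add, Nat.card_zmod,
    Nat.pow_le_pow_iff_right (Fact.out : p.Prime).one_lt]

theorem exists_two_subnormal (hG : IsPGroup p G) (h2 : (2 : ZMod p) ≠ 0) (hf : Function.Injective ρ)
    {E : Subgroup G} (hE : E ≠ ⊥) (hc : ∀ a ∈ E, ∀ b ∈ E, a * b = b * a)
    (he : ∀ a ∈ E, a ^ p = 1) (ho : Nat.card W ≤ Nat.card E * Nat.card (fx ρ E)) :
    ∃ A : Subgroup G, A ≠ ⊥ ∧ Nat.card W ≤ Nat.card A * Nat.card (fx ρ A) ∧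
      (∀ a ∈ A, ∀ b ∈ A, (ρ a - 1) * (ρ b - 1) = 0) ∧
      ∀ g, ∀ b ∈ A, ∀ a ∈ A, g * b * g⁻¹ * a * (g * b * g⁻¹)⁻¹ ∈ A := by
  obtain ⟨A, h1, h3, h4⟩ := exists_quad ρ hE hc he ho
  have : Finite (End (ZMod p) W) := Finite.of_injective _ DFunLike.coe_injective
  let U0 : Submodule (ZMod p) (End (ZMod p) W) := AddSubgroup.toZModSubmodule p
    { carrier := {α | ∃ a ∈ A, ρ a - 1 = α}
      zero_mem' := ⟨1, one_mem A, by simp⟩
      add_mem' := by
        rintro _ _ ⟨a, ha, rfl⟩ ⟨b, hb, rfl⟩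
        refine ⟨a * b, mul_mem ha hb, ?_⟩
        rw [map_mul, ← sub_eq_zero, ← h4 a ha b hb]; noncomm_ring
      neg_mem' := by
        rintro _ ⟨a, ha, rfl⟩
        exact ⟨a⁻¹, inv_mem ha, by rw [inv_of ρ (a := ρ a - 1) (by simp) (h4 a ha a ha)]; simp⟩ }
  have s0 : Sq U0 := by rintro _ ⟨a, ha, rfl⟩ _ ⟨b, hb, rfl⟩; exact h4 a ha b hb
  have i0 : In ρ U0 ⊤ := by rintro _ ⟨a, -, rfl⟩; exact ⟨a, trivial, by simp⟩
  have g0 : grp ρ s0 = A := Subgroup.ext fun g =>
    ⟨fun ⟨a, ha, e⟩ => hf (sub_left_injective e) ▸ ha, fun k => ⟨g, k, rfl⟩⟩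
  have n0 : 0 < finrank (ZMod p) U0 := by
    obtain ⟨⟨a, ha⟩, k⟩ := (Subgroup.ne_bot_iff_exists_ne_one).mp h1
    exact finrank_pos_iff_exists_ne_zero.mpr ⟨⟨_, a, ha, rfl⟩, fun e => k (Subtype.ext
      (hf ((sub_eq_zero.mp (congrArg Subtype.val e)).trans ρ.map_one.symm)))⟩
  obtain ⟨U, hU, k⟩ := exists_normal ρ hG h2 ⟨s0, i0, n0, (off_iff ρ hf s0 i0 n0).mpr (g0 ▸ h3)⟩
  refine ⟨grp ρ hU.sq, fun e => ?_, (off_iff ρ hf hU.sq hU.inn hU.ne).mp hU.off,
    fun a ha b hb => hU.sq _ ha _ hb, fun g b hb a ha => ?_⟩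
  · obtain ⟨a, ha⟩ := finrank_pos_iff_exists_ne_zero.mp hU.ne
    obtain ⟨g, -, e'⟩ := hU.inn a a.2
    have : g = 1 := e.le (show _ ∈ U by simp [e'])
    exact ha (Subtype.ext (by simpa [this] using e'))
  · have e1 := cg_one_add (F := ZMod p) ρ g (h := b) (a := ρ b - 1) (by simp)
    have e2 := inv_of ρ e1 (by rw [cg_mul, hU.sq _ hb _ hb, map_zero])
    have := k g _ ⟨_, hb, rfl⟩ _ ha
    rw [← e1, ← e2] at this
    change _ ∈ U
    convert this using 1
    rw [mul_sub, sub_mul, mul_one, ← map_mul, ← map_mul, ← map_mul, mul_inv_cancel, map_one]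

end Cfsg.Agent.Lib.Off
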