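import Cfsg.Agent.Lib.Off.Lim

set_option autoImplicit false

/-! # Quadratic offenders that are normal in their normal closure -/

namespace Cfsg.Agent.Lib.Off

open Module Polynomial

section
variable {F E G : Type*} [Field F] [Ring E] [Algebra F E] [Group G] (ρ : G →* E)

variable (F) in
/-- conjugation -/
def cg (g : G) : E →ₗ[F] E := LinearMap.mulLeftRight F (ρ g, ρ g⁻¹)

theorem cg_apply (g : G) (a : E) : cg F ρ g a = ρ g * a * ρ g⁻¹ := rfl

theorem cg_cg (g h : G) (a : E) : cg F ρ g (cg F ρ h a) = cg F ρ (g * h) a := by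
  simp only [cg_apply, mul_inv_rev, map_mul, mul_assoc]

theorem cg_one (a : E) : cg F ρ 1 a = a := by simp [cg_apply]

theorem cg_mul (g : G) (a b : E) : cg F ρ g a * cg F ρ g b = cg F ρ g (a * b) := by
  simp only [cg_apply, mul_assoc]
  rw [← mul_assoc (ρ g⁻¹), ← map_mul, inv_mul_cancel, map_one, one_mul]

theorem cg_inj (g : G) : Function.Injective (cg F ρ g) := fun a b h => by
  rw [← cg_one (F := F) ρ a, ← cg_one (F := F) ρ b, ← inv_mul_cancel g, ← cg_cg, ← cg_cg, h]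

theorem cg_one_add (g : G) {h : G} {a : E} (e : ρ h = 1 + a) : ρ (g * h * g⁻¹) = 1 + cg F ρ g a := by
  rw [map_mul, map_mul, e, mul_add, add_mul, mul_one, ← map_mul, mul_inv_cancel, map_one, cg_apply]

variable (F) in
/-- the upper central series of the conjugation module -/
def fl : ℕ → Submodule F E
  | 0 => ⊥
  | k + 1 => ⨅ g, (fl k).comap (cg F ρ g - LinearMap.id)

theorem mem_fl {k : ℕ} {a : E} : a ∈ fl F ρ (k + 1) ↔ ∀ g, cg F ρ g a - a ∈ fl F ρ k := by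
  simp [fl, Submodule.mem_iInf]

theorem fl_cg (k : ℕ) : ∀ g, ∀ a ∈ fl F ρ k, cg F ρ g a ∈ fl F ρ k := by
  induction k with
  | zero => intro g a ha; rw [show a = 0 from ha, map_zero]; exact zero_mem _
  | succ k ih =>
    intro g a ha
    refine (mem_fl ρ).mpr fun h => ?_
    have := ih g _ ((mem_fl ρ).mp ha (g⁻¹ * h * g))
    rwa [map_sub, cg_cg, ← mul_assoc, mul_inv_cancel_left, ← cg_cg] at this

theorem fl_le (k : ℕ) : fl F ρ k ≤ fl F ρ (k + 1) := fun a ha =>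
  (mem_fl ρ).mpr fun g => sub_mem (fl_cg ρ k g a ha) ha

/-- square zero -/
def Sq (U : Submodule F E) : Prop := ∀ a ∈ U, ∀ b ∈ U, a * b = 0

/-- contained in a subgroup -/
def In (U : Submodule F E) (H : Subgroup G) : Prop := ∀ a ∈ U, ∃ g ∈ H, ρ g = 1 + a

/-- annihilator -/
def ann (U : Submodule F E) : Submodule F E where
  carrier := {η | ∀ a ∈ U, a * η = 0}
  add_mem' h1 h2 a ha := by rw [mul_add, h1 a ha, h2 a ha, add_zero]
  zero_mem' a _ := mul_zero a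
  smul_mem' c _ h a ha := by rw [mul_smul_comm, h a ha, smul_zero]

/-- quadratic offenders -/
structure Gd (n c : ℕ) (U : Submodule F E) : Prop where
  sq : Sq U
  inn : In ρ U ⊤
  ne : 0 < finrank F U
  off : c ≤ n * finrank F U + finrank F (ann U)

theorem inv_of {g : G} {a : E} (e : ρ g = 1 + a) (h : a * a = 0) : ρ g⁻¹ = 1 - a := by
  rw [← mul_one (ρ g⁻¹), show (1 : E) = (1 + a) * (1 - a) by noncomm_ring [h], ← e, ← mul_assoc,
    ← map_mul, inv_mul_cancel, map_one, one_mul, e]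
  noncomm_ring [h]

/-- the subgroup of a square zero subspace -/
def grp {U : Submodule F E} (h : Sq U) : Subgroup G where
  carrier := {g | ρ g - 1 ∈ U}
  one_mem' := by simp
  mul_mem' {a b} ha hb := by
    have := h _ ha _ hb
    change _ ∈ U
    convert U.add_mem ha hb using 1
    rw [map_mul, ← sub_eq_zero, ← this]; noncomm_ring
  inv_mem' {a} ha := by
    change _ ∈ U
    rw [inv_of ρ (a := ρ a - 1) (by simp) (h _ ha _ ha), sub_sub_cancel_left]
    exact U.neg_mem ha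

variable {ρ} [Module.Finite F E] {n c : ℕ}

theorem Gd.op {U : Submodule F E} (h : Gd ρ n c U) (T : Submodule F E → Submodule F E)
    (hm : Monotone T) (hd : ∀ U : Submodule F E, finrank F U ≤ finrank F (T U))
    (hz : ∀ U U' : Submodule F E, (∀ a ∈ U, ∀ b ∈ U', a * b = 0) → ∀ a ∈ T U, ∀ b ∈ T U', a * b = 0)
    (hf : ∀ i, T (fl F ρ i) ≤ fl F ρ i) (hi : In ρ (T U) ⊤) :
    Gd ρ n c (T U) ∧ ∀ i, finrank F ↥(U ⊓ fl F ρ i) ≤ finrank F ↥(T U ⊓ fl F ρ i) := by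
  refine ⟨⟨hz _ _ h.sq, hi, h.ne.trans_le (hd U), h.off.trans (add_le_add
    (Nat.mul_le_mul_left _ (hd U)) ((hd _).trans (Submodule.finrank_mono fun η hη a ha =>
      hz U (ann U) (fun a ha b hb => hb a ha) a ha η hη)))⟩, fun i => (hd _).trans
    (Submodule.finrank_mono (le_inf (hm inf_le_left) ((hm inf_le_right).trans (hf i))))⟩

theorem Gd.cj {U : Submodule F E} (h : Gd ρ n c U) (g : G) : Gd ρ n c (U.map (cg F ρ g)) ∧
    ∀ i, finrank F ↥(U ⊓ fl F ρ i) ≤ finrank F ↥(U.map (cg F ρ g) ⊓ fl F ρ i) := by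
  refine h.op (Submodule.map (cg F ρ g)) (fun _ _ => Submodule.map_mono)
    (fun U => (Submodule.equivMapOfInjective _ (cg_inj ρ g) U).finrank_eq.le) ?_ ?_ ?_
  · rintro U U' k _ ⟨a, ha, rfl⟩ _ ⟨b, hb, rfl⟩
    rw [cg_mul, k a ha b hb, map_zero]
  · rintro i _ ⟨a, ha, rfl⟩; exact fl_cg ρ i g a ha
  · rintro _ ⟨a, ha, rfl⟩
    obtain ⟨x, -, e⟩ := h.inn a ha
    exact ⟨_, trivial, cg_one_add ρ g e⟩

omit [Module.Finite F E] in
theorem halves (h2 : (2 : F) ≠ 0) {L : Submodule F E} {β u : E} (h0 : u ∈ L)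
    (h1 : (1 + β) * u * (1 - β) ∈ L) (h1' : (1 - β) * u * (1 + β) ∈ L) :
    β * u - u * β ∈ L ∧ β * u * β ∈ L := by
  constructor <;> rw [← L.smul_mem_iff h2, two_smul]
  · convert L.sub_mem h1 h1' using 1; noncomm_ring
  · convert L.sub_mem (L.add_mem h0 h0) (L.add_mem h1 h1') using 1; noncomm_ring

omit [Module.Finite F E] in
theorem exp_mem (h2 : (2 : F) ≠ 0) {U0 U1 U2 : Submodule F E} (s0 : Sq U0) (s1 : Sq U1) (s2 : Sq U2)
    (i0 : In ρ U0 ⊤) (i1 : In ρ U1 ⊤) (i2 : In ρ U2 ⊤)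
    (n1 : ∀ b ∈ U1, ∀ a ∈ U0, b * a - a * b ∈ U0) (n2 : ∀ b ∈ U2, ∀ a ∈ U0, b * a - a * b ∈ U0)
    (n3 : ∀ b ∈ U2, ∀ a ∈ U1, b * a - a * b ∈ U1) (n4 : ∀ b ∈ U1, ∀ a ∈ U2, b * a - a * b ∈ U2)
    {γ : E} (hγ : γ ∈ U0 ⊔ U1 ⊔ U2) (h : γ * γ = 0) : ∃ g ∈ (⊤ : Subgroup G), ρ g = 1 + γ := by
  obtain ⟨_, h1, c, hc, rfl⟩ := Submodule.mem_sup.mp hγ
  obtain ⟨a, ha, b, hb, rfl⟩ := Submodule.mem_sup.mp h1
  obtain ⟨t, ht⟩ : ∃ t : F, t + t = 1 := ⟨2⁻¹, by rw [← two_mul, mul_inv_cancel₀ h2]⟩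
  obtain ⟨g0, -, e0⟩ := i0 _ (U0.add_mem ha (U0.smul_mem t (U0.add_mem (n1 b hb a ha) (n2 c hc a ha))))
  obtain ⟨g1, -, e1⟩ := i1 _ (U1.add_mem hb (U1.smul_mem t (n3 c hc b hb)))
  obtain ⟨g2, -, e2⟩ := i2 _ hc
  refine ⟨g0 * (g1 * g2), trivial, ?_⟩
  have aa := s0 a ha a ha
  have bb := s1 b hb b hb
  have cc := s2 c hc c hc
  have cbc : c * b * c = 0 := by
    have := s2 c hc _ (n4 b hb c hc)
    rwa [mul_sub, ← mul_assoc c c, cc, zero_mul, sub_zero, ← mul_assoc] at this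
  have bcb : b * c * b = 0 := by
    have := s1 b hb _ (n3 c hc b hb)
    rwa [mul_sub, ← mul_assoc b b, bb, zero_mul, sub_zero, ← mul_assoc] at this
  obtain ⟨y, hy⟩ : ∃ y, y = b + c := ⟨_, rfl⟩
  have e3 : ρ (g1 * g2) = 1 + y + t • (y * y) := by
    rw [map_mul, e1, e2, hy]
    calc _ = 1 + (b + c) + (b * c + t • (c * b - b * c + (c * b * c - b * (c * c)))) := by
          simp only [smul_add, smul_sub, mul_add, add_mul, sub_mul, smul_mul_assoc, mul_one, one_mul,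
            mul_assoc]
          abel
      _ = _ := by
          rw [cbc, cc, mul_zero, add_mul, mul_add, mul_add, bb, cc]
          match_scalars <;> first | ring1 | linear_combination ht | linear_combination -ht
  have aya : a * y * a = 0 := by
    have := s0 a ha _ (U0.add_mem (n1 b hb a ha) (n2 c hc a ha))
    rw [hy, ← this]
    noncomm_ring [← mul_assoc a a, aa]
  have yyy : y * y * y = 0 := by
    rw [hy]
    calc _ = b * b * (b + c) + c * c * (b + c) + b * c * b + c * b * c + b * (c * c) + c * (b * b) := by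
          noncomm_ring
      _ = 0 := by simp [bb, cc, cbc, bcb]
  have yy : y * y = -(a * y + y * a) := by
    rw [add_assoc, ← hy] at h
    rw [eq_neg_iff_add_eq_zero, ← h]
    noncomm_ring [aa]
  have ayy : a * (y * y) = 0 := by
    rw [yy, mul_neg, mul_add, ← mul_assoc, aa, ← mul_assoc, aya]; simp
  have yay : y * a * y = 0 := by
    have : y * a * y = -(y * y * y) - a * (y * y) := by
      conv_rhs => enter [1]; rw [yy]
      noncomm_ring
    rw [this, yyy, ayy]; simp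
  rw [show b * a - a * b + (c * a - a * c) = y * a - a * y by rw [hy]; noncomm_ring] at e0
  rw [map_mul, e0, e3, add_assoc a, ← hy]
  have z : (y * a - a * y) * y = 0 := by rw [sub_mul, yay, mul_assoc, ayy, sub_zero]
  generalize hz : y * a - a * y = z' at z
  calc _ = 1 + (a + y) + (a * y + t • (z' + y * y + a * (y * y) + z' * y + t • (z' * y * y))) := by
        simp only [smul_add, mul_add, add_mul, smul_mul_assoc, mul_smul_comm, mul_one, one_mul,
          mul_assoc]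
        abel
    _ = _ := by
        rw [z, ayy, yy, ← hz, zero_mul]
        match_scalars <;> first | ring1 | linear_combination ht | linear_combination -ht

end

theorem exists_normal_lt {G : Type*} [Group G] [Finite G] {p : ℕ} [Fact p.Prime] (hG : IsPGroup p G)
    {A H : Subgroup G} (h : ¬ H ≤ A) : ∃ M, A ⊓ H ≤ M ∧ M < H ∧ ∀ x ∈ H, ∀ m ∈ M, x * m * x⁻¹ ∈ M := by
  have := (hG.to_subgroup H).isNilpotent
  obtain ⟨M, hM, hAM⟩ := (eq_top_or_exists_le_coatom (A.subgroupOf H)).resolve_left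
    (by rwa [Subgroup.subgroupOf_eq_top])
  have hn := Subgroup.NormalizerCondition.normal_of_coatom M Group.normalizerCondition_of_isNilpotent hM
  refine ⟨M.map H.subtype, fun x hx => ⟨⟨x, hx.2⟩, hAM hx.1, rfl⟩,
    (Subgroup.map_subtype_le M).lt_of_ne fun e => hM.1 (eq_top_iff.mpr fun x _ => ?_), ?_⟩
  · obtain ⟨y, hy, e'⟩ := e.ge x.2
    rwa [← Subtype.ext e']
  · rintro x hx _ ⟨m, hm, rfl⟩
    exact ⟨_, hn.conj_mem m hm ⟨x, hx⟩, rfl⟩

variable {p : ℕ} [Fact p.Prime] {E G : Type*} [Ring E] [Algebra (ZMod p) E] [Group G] [Finite G]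
  [Finite E] (ρ : G →* E)

omit [Finite G] in
theorem fl_top (hG : IsPGroup p G) : ∃ N, fl (ZMod p) ρ N = ⊤ := by
  obtain ⟨N, hN⟩ := monotone_stabilizes_iff_noetherian.mpr
    (inferInstance : IsNoetherian (ZMod p) E) ⟨fl (ZMod p) ρ, monotone_nat_of_le_succ (fl_le ρ)⟩
  refine ⟨N, by_contra fun h => ?_⟩
  let _ : MulAction G (E ⧸ fl (ZMod p) ρ N) :=
    { smul g := Submodule.mapQ _ _ (cg (ZMod p) ρ g) (fl_cg ρ N g)
      one_smul y := by
        obtain ⟨v, rfl⟩ := Submodule.Quotient.mk_surjective _ y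
        exact congrArg Submodule.Quotient.mk (cg_one ρ v)
      mul_smul g h y := by
        obtain ⟨v, rfl⟩ := Submodule.Quotient.mk_surjective _ y
        exact congrArg Submodule.Quotient.mk (cg_cg ρ g h v).symm }
  have := Submodule.Quotient.nontrivial_iff.mpr h
  have : Finite (E ⧸ fl (ZMod p) ρ N) := Finite.of_surjective _ (Submodule.Quotient.mk_surjective _)
  obtain ⟨b, hb, h0⟩ := hG.exists_fixed_point_of_prime_dvd_card_of_fixed_point
    (E ⧸ fl (ZMod p) ρ N) (a := 0) (by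
      rw [Module.natCard_eq_pow_finrank (K := ZMod p), Nat.card_zmod]
      exact dvd_pow_self p Module.finrank_pos.ne') fun g => map_zero (Submodule.mapQ _ _ _ _)
  obtain ⟨v, rfl⟩ := Submodule.Quotient.mk_surjective _ b
  refine h0 ((Submodule.Quotient.mk_eq_zero _).mpr ?_).symm
  have e : fl (ZMod p) ρ N = fl (ZMod p) ρ (N + 1) := hN (N + 1) N.le_succ
  rw [e, mem_fl]
  exact fun g => (Submodule.Quotient.eq _).mp (hb g)

theorem exists_normal (hG : IsPGroup p G) (h2 : (2 : ZMod p) ≠ 0) {n c : ℕ}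
    {U0 : Submodule (ZMod p) E} (h0 : Gd ρ n c U0) : ∃ U : Submodule (ZMod p) E, Gd ρ n c U ∧
      ∀ g, ∀ b ∈ U.map (cg (ZMod p) ρ g), ∀ a ∈ U, (1 + b) * a * (1 - b) ∈ U := by
  obtain ⟨N, hN⟩ := fl_top ρ hG
  let pot : Submodule (ZMod p) E → ℕ := fun U =>
    ∑ i ∈ Finset.range (N + 1), finrank (ZMod p) ↥(U ⊓ fl (ZMod p) ρ i)
  have : Finite (Submodule (ZMod p) E) := Finite.of_injective _ SetLike.coe_injective
  obtain ⟨U1, h1, hmax⟩ := Set.exists_max_image {U | Gd ρ n c U} pot (Set.toFinite _) ⟨U0, h0⟩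
  have hc : ∀ U, Gd ρ n c U ∧ pot U1 ≤ pot U → ∀ g, Gd ρ n c (U.map (cg (ZMod p) ρ g)) ∧
      pot U1 ≤ pot (U.map (cg (ZMod p) ρ g)) := fun U hU g =>
    ⟨(hU.1.cj g).1, hU.2.trans (Finset.sum_le_sum fun i _ => (hU.1.cj g).2 i)⟩
  suffices key : ∀ H : Subgroup G, ∀ U, Gd ρ n c U ∧ pot U1 ≤ pot U → ∀ U', Gd ρ n c U' ∧
      pot U1 ≤ pot U' → In ρ U H → In ρ U' H → ∀ b ∈ U', ∀ a ∈ U, (1 + b) * a * (1 - b) ∈ U from
    ⟨U1, h1, fun g => key ⊤ U1 ⟨h1, le_rfl⟩ _ (hc U1 ⟨h1, le_rfl⟩ g) h1.inn (h1.cj g).1.inn⟩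
  intro H
  induction H using WellFoundedLT.induction with
  | ind H ih =>
  intro U hU U' hU' i1 i2 β hβ
  obtain ⟨x, hx, ex⟩ := i2 β hβ
  have ββ := hU'.1.sq β hβ β hβ
  have ex' := inv_of ρ ex ββ
  by_cases hH : H ≤ grp ρ hU.1.sq
  · intro a ha
    have : β ∈ U := by simpa [ex] using (show ρ x - 1 ∈ U from hH hx)
    convert ha using 1
    noncomm_ring [hU.1.sq a ha β this, ← mul_assoc β a, hU.1.sq β this a ha]
  obtain ⟨M, m1, m2, m3⟩ := exists_normal_lt hG hH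
  have iM : ∀ y ∈ H, In ρ (U.map (cg (ZMod p) ρ y)) M := by
    rintro y hy _ ⟨a, ha, rfl⟩
    obtain ⟨g, hg, e⟩ := i1 a ha
    exact ⟨_, m3 y hy g (m1 ⟨show _ ∈ U by simpa [e], hg⟩), cg_one_add ρ y e⟩
  have br : ∀ y ∈ H, ∀ z ∈ H, ∀ b ∈ U.map (cg (ZMod p) ρ z), ∀ a ∈ U.map (cg (ZMod p) ρ y),
      b * a - a * b ∈ U.map (cg (ZMod p) ρ y) := fun y hy z hz b hb a ha => by
    have := ih M m2 _ (hc U hU y) _ (hc U hU z) (iM y hy) (iM z hz)
    exact (halves h2 ha (this b hb a ha) (by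
      simpa [sub_eq_add_neg] using this (-b) (neg_mem hb) a ha)).1
  have hx' := H.inv_mem hx
  have c1 : ∀ u, cg (ZMod p) ρ x u = (1 + β) * u * (1 - β) := fun u => by rw [cg_apply, ex, ex']
  have c2 : ∀ u, cg (ZMod p) ρ x⁻¹ u = (1 - β) * u * (1 + β) := fun u => by
    rw [cg_apply, inv_inv, ex, ex']
  have hfl : ∀ i, ∀ u ∈ fl (ZMod p) ρ (i + 1), β * u - u * β ∈ fl (ZMod p) ρ i ∧
      β * u * β ∈ fl (ZMod p) ρ i := fun i u hu => by
    have k1 := (mem_fl ρ).mp hu x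
    have k2 := (mem_fl ρ).mp hu x⁻¹
    rw [c1] at k1
    rw [c2] at k2
    constructor <;> rw [← Submodule.smul_mem_iff _ h2, two_smul]
    · convert sub_mem k1 k2 using 1; noncomm_ring
    · convert neg_mem (add_mem k1 k2) using 1; noncomm_ring
  have hL : lim β U ≤ U.map (cg (ZMod p) ρ 1) ⊔ U.map (cg (ZMod p) ρ x) ⊔
      U.map (cg (ZMod p) ρ x⁻¹) := by
    have k : U ≤ U.map (cg (ZMod p) ρ 1) ⊔ U.map (cg (ZMod p) ρ x) ⊔ U.map (cg (ZMod p) ρ x⁻¹) :=
      fun u hu => Submodule.mem_sup_left (Submodule.mem_sup_left ⟨u, hu, cg_one ρ u⟩)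
    exact lim_le k fun u hu => halves h2 (k hu)
      (Submodule.mem_sup_left (Submodule.mem_sup_right ⟨u, hu, c1 u⟩))
      (Submodule.mem_sup_right ⟨u, hu, c2 u⟩)
  obtain ⟨g1, g2⟩ := hU.1.op (lim β) (fun _ _ => lim_mono β) (finrank_le_lim ββ)
    (fun _ _ => lim_mul ββ) (fun i => lim_le le_rfl fun u hu => hfl i u (fl_le ρ i hu))
    fun γ hγ => exp_mem h2 (hc U hU 1).1.sq (hc U hU x).1.sq (hc U hU x⁻¹).1.sq (hc U hU 1).1.inn
      (hc U hU x).1.inn (hc U hU x⁻¹).1.inn (br _ H.one_mem _ hx) (br _ H.one_mem _ hx')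
      (br _ hx _ hx') (br _ hx' _ hx) (hL hγ) (lim_mul ββ hU.1.sq γ hγ γ hγ)
  have g3 := (Finset.sum_eq_sum_iff_of_le fun i _ => g2 i).mp
    (le_antisymm (Finset.sum_le_sum fun i _ => g2 i) ((hmax _ g1).trans hU.2))
  have st : ∀ i ≤ N, Stb β (U ⊓ fl (ZMod p) ρ i) := fun i => by
    induction i with
    | zero =>
      intro _ u hu
      rw [show u = 0 from hu.2]
      simp
    | succ i ih' =>
      intro hi u hu
      have s := ih' (by omega)
      have e : U ⊓ fl (ZMod p) ρ i = lim β U ⊓ fl (ZMod p) ρ i :=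
        Submodule.eq_of_le_of_finrank_eq (le_inf (s.le_lim ββ inf_le_left) inf_le_right)
          (g3 i (Finset.mem_range.mpr (by omega)))
      have k2 := e.ge ⟨mem_lim_two hu.1, (hfl i u hu.2).2⟩
      have k1 := e.ge ⟨mem_lim_one hu.1 (s.C_mem ββ inf_le_left k2), (hfl i u hu.2).1⟩
      exact ⟨⟨k1.1, fl_le ρ i k1.2⟩, k2.1, fl_le ρ i k2.2⟩
  intro a ha
  obtain ⟨k1, k2⟩ := st N le_rfl a ⟨ha, hN ▸ trivial⟩
  convert U.sub_mem (U.add_mem ha k1.1) k2.1 using 1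
  noncomm_ring

end Cfsg.Agent.Lib.Off
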